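import Mathlib.Topology.Homotopy.Lifting
import Mathlib.Topology.Subpath
import Mathlib.Topology.Connected.LocallyPathConnected
import Mathlib.GroupTheory.GroupAction.Quotient
import Mathlib.GroupTheory.Index

/-!
# Existence of covering spaces

Let `X` be path connected, locally path connected and semilocally simply connected, `x₀ : X`.
Every set with an action of `π₁(X, x₀)` is the fibre over `x₀` of a covering map with the
corresponding monodromy action.  The covering is the fibre bundle with discrete fibre and transition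
functions given by (locally constant) elements of the fundamental group.
-/

set_option autoImplicit false

open CategoryTheory Topology Set Function

universe u v

noncomputable section

namespace Groth.Agent.An.H867.Cov

variable {X : Type u} [TopologicalSpace X]

/-- Morphisms of the fundamental groupoid between points of `X`. -/
abbrev Hm (y z : X) := FundamentalGroupoid.mk y ⟶ FundamentalGroupoid.mk z

/-- The class of a path. -/
def cls {y z : X} (γ : Path y z) : Hm y z := Path.Homotopic.Quotient.mk γ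

theorem cls_eq_iff {y z : X} {γ δ : Path y z} : cls γ = cls δ ↔ γ.Homotopic δ :=
  Path.Homotopic.Quotient.eq

theorem cls_trans {x y z : X} (γ : Path x y) (δ : Path y z) :
    cls (γ.trans δ) = cls γ ≫ cls δ := rfl

theorem cls_refl (x : X) : cls (Path.refl x) = 𝟙 (FundamentalGroupoid.mk x) := rfl

theorem cls_symm {y z : X} (γ : Path y z) : cls γ.symm = inv (cls γ) := by
  rw [← Groupoid.inv_eq_inv]
  rfl

/-- `X` is semilocally simply connected, in the form used here. -/
def SLSC (X : Type u) [TopologicalSpace X] : Prop :=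
  ∀ x : X, ∃ U ∈ 𝓝 x, ∀ (y z : X) (γ δ : Path y z), range γ ⊆ U → range δ ⊆ U → γ.Homotopic δ

/-- Transport data: `tr i z` is a class of paths from `x₀` to `z`, compatible with paths inside the
neighbourhood `U i` of `i`. -/
structure Transport (x₀ : X) where
  /-- The neighbourhoods. -/
  U : X → Set X
  /-- The classes. -/
  tr : ∀ _ z : X, Hm x₀ z
  isOpen : ∀ i, IsOpen (U i)
  mem : ∀ i, i ∈ U i
  tr_eq : ∀ (i z z' : X) (δ : Path z z'), range δ ⊆ U i → tr i z' = tr i z ≫ cls δ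

theorem nonempty_transport [PathConnectedSpace X] [LocallyPathConnectedSpace X] (hs : SLSC X)
    (x₀ : X) : Nonempty (Transport x₀) := by
  classical
  -- nice neighbourhoods
  have h1 : ∀ i : X, ∃ U : Set X, IsOpen U ∧ i ∈ U ∧ IsPathConnected U ∧
      ∀ (y z : X) (γ δ : Path y z), range γ ⊆ U → range δ ⊆ U → γ.Homotopic δ := by
    intro i
    obtain ⟨V, hV, hVh⟩ := hs i
    obtain ⟨V', hV'V, hV'o, hiV'⟩ := mem_nhds_iff.1 hV
    obtain ⟨U, hU, hUV⟩ := (isOpen_isPathConnected_basis i).mem_iff.1 (hV'o.mem_nhds hiV')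
    exact ⟨U, hU.1, hU.2.1, hU.2.2, fun y z γ δ hγ hδ =>
      hVh y z γ δ (hγ.trans (hUV.trans hV'V)) (hδ.trans (hUV.trans hV'V))⟩
  choose U hUo hUm hUp hUh using h1
  let tr : ∀ _ z : X, Hm x₀ z := fun i z =>
    if h : z ∈ U i then
      cls (PathConnectedSpace.somePath x₀ i) ≫ cls ((hUp i).joinedIn i (hUm i) z h).somePath
    else cls (PathConnectedSpace.somePath x₀ z)
  refine ⟨⟨U, tr, hUo, hUm, fun i z z' δ hδ => ?_⟩⟩
  have hz : z ∈ U i := hδ ⟨0, δ.source⟩
  have hz' : z' ∈ U i := hδ ⟨1, δ.target⟩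
  simp only [tr, dif_pos hz, dif_pos hz', Category.assoc]
  congr 1
  rw [← cls_trans, cls_eq_iff]
  refine hUh i _ _ _ _ ?_ ?_
  · rintro _ ⟨t, rfl⟩
    exact JoinedIn.somePath_mem _ t
  · rw [Path.trans_range, union_subset_iff]
    refine ⟨?_, hδ⟩
    rintro _ ⟨t, rfl⟩
    exact JoinedIn.somePath_mem _ t

namespace Transport

variable {x₀ : X} (D : Transport x₀)

/-- The transition element at `z` from the chart `i` to the chart `j`. -/
def g (i j z : X) : FundamentalGroup X x₀ := D.tr i z ≫ inv (D.tr j z)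

theorem g_self (i z : X) : D.g i i z = 1 := by
  simp only [g, IsIso.hom_inv_id]
  rfl

theorem g_mul (i j k z : X) : D.g j k z * D.g i j z = D.g i k z := by
  change (D.tr i z ≫ inv (D.tr j z)) ≫ (D.tr j z ≫ inv (D.tr k z)) = D.tr i z ≫ inv (D.tr k z)
  simp only [Category.assoc, IsIso.inv_hom_id_assoc]

theorem g_eq {i j z z' : X} (δ : Path z z') (hi : range δ ⊆ D.U i) (hj : range δ ⊆ D.U j) :
    D.g i j z' = D.g i j z := by
  simp only [g, D.tr_eq i z z' δ hi, D.tr_eq j z z' δ hj, IsIso.inv_comp, Category.assoc,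
    IsIso.hom_inv_id_assoc]

theorem cls_subpath_trans {a b : X} (γ : Path a b) (t₀ t₁ t₂ : unitInterval) :
    cls (γ.subpath t₀ t₂) = cls (γ.subpath t₀ t₁) ≫ cls (γ.subpath t₁ t₂) := by
  rw [← cls_trans, cls_eq_iff]
  exact Path.Homotopic.symm ⟨Path.Homotopy.subpathTransSubpath γ t₀ t₁ t₂⟩

theorem eventually_subpath {a b : X} (γ : Path a b) (t₀ : unitInterval) {U : Set X}
    (hU : IsOpen U) (h : γ t₀ ∈ U) : ∀ᶠ t in 𝓝 t₀, range (γ.subpath t₀ t) ⊆ U := by
  have h1 : γ ⁻¹' U ∈ 𝓝 t₀ := γ.continuous.continuousAt.preimage_mem_nhds (hU.mem_nhds h)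
  obtain ⟨ε, hε, hball⟩ := Metric.mem_nhds_iff.1 h1
  filter_upwards [Metric.ball_mem_nhds t₀ hε] with t ht
  rw [Path.range_subpath]
  rintro _ ⟨s, hs, rfl⟩
  refine hball ?_
  rw [Metric.mem_ball] at ht ⊢
  refine lt_of_le_of_lt ?_ ht
  change |(s : ℝ) - t₀| ≤ |(t : ℝ) - t₀|
  have hs' : (s : ℝ) ∈ uIcc (t₀ : ℝ) (t : ℝ) := hs
  exact abs_sub_left_of_mem_uIcc hs'

variable (S : Type v) [MulAction (FundamentalGroup X x₀) S] [TopologicalSpace S] [DiscreteTopology S]

/-- The bundle with discrete fibre `S` and transition functions `g`. -/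
def core [LocallyPathConnectedSpace X] : FiberBundleCore X X S where
  baseSet := D.U
  isOpen_baseSet := D.isOpen
  indexAt := id
  mem_baseSet_at := D.mem
  coordChange i j z s := D.g i j z • s
  coordChange_self i z _ s := by rw [D.g_self, one_smul]
  continuousOn_coordChange i j := by
    rintro ⟨z, s⟩ ⟨⟨hi, hj⟩, -⟩
    refine ContinuousAt.continuousWithinAt ?_
    have ho : IsOpen (D.U i ∩ D.U j) := (D.isOpen i).inter (D.isOpen j)
    obtain ⟨V, hV, hVU⟩ := (isOpen_isPathConnected_basis z).mem_iff.1 (ho.mem_nhds ⟨hi, hj⟩)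
    have h1 : (V ×ˢ {s} : Set (X × S)) ∈ 𝓝 (z, s) :=
      prod_mem_nhds (hV.1.mem_nhds hV.2.1) ((isOpen_discrete _).mem_nhds rfl)
    refine (continuousAt_const (y := D.g i j z • s)).congr ?_
    filter_upwards [h1] with q hq
    obtain ⟨hq1, hq2⟩ := hq
    have hq2 : q.2 = s := hq2
    let δ := (hV.2.2.joinedIn z hV.2.1 q.1 hq1).somePath
    have hδ : range δ ⊆ V := by
      rintro _ ⟨t, rfl⟩
      exact JoinedIn.somePath_mem _ t
    rw [hq2, D.g_eq δ (fun x hx => (hVU (hδ hx)).1) (fun x hx => (hVU (hδ hx)).2)]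
  coordChange_comp i j k z _ s := by rw [smul_smul, D.g_mul]

variable [LocallyPathConnectedSpace X]

theorem core_coordChange (i j z : X) (s : S) : (D.core S).coordChange i j z s = D.g i j z • s := rfl

theorem isCoveringMap_core : IsCoveringMap (D.core S).proj :=
  FiberBundle.isCoveringMap (F := S) (E := (D.core S).Fiber)

/-- The explicit lift of a path. -/
def lift {a b : X} (γ : Path a b) (s : S) (t : unitInterval) : (D.core S).TotalSpace :=
  ⟨γ t, (show FundamentalGroup X x₀ from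
    D.tr (γ 0) (γ 0) ≫ cls (γ.subpath 0 t) ≫ inv (D.tr (γ t) (γ t))) • s⟩

theorem continuous_lift {a b : X} (γ : Path a b) (s : S) : Continuous (D.lift S γ s) := by
  rw [continuous_iff_continuousAt]
  intro t₀
  refine ((D.core S).localTriv (γ t₀)).continuousAt_of_comp_left ?_ ?_ ?_
  · exact γ.continuous.continuousAt
  · exact D.mem (γ t₀)
  · have h1 : ∀ᶠ t in 𝓝 t₀, ((D.core S).localTriv (γ t₀) ∘ D.lift S γ s) t =
        (γ t, (show FundamentalGroup X x₀ from
          D.tr (γ 0) (γ 0) ≫ cls (γ.subpath 0 t₀) ≫ inv (D.tr (γ t₀) (γ t₀))) • s) := by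
      filter_upwards [eventually_subpath γ t₀ (D.isOpen (γ t₀)) (D.mem (γ t₀))] with t ht
      change (γ t, D.g (γ t) (γ t₀) (γ t) • (show FundamentalGroup X x₀ from
          D.tr (γ 0) (γ 0) ≫ cls (γ.subpath 0 t) ≫ inv (D.tr (γ t) (γ t))) • s) = _
      rw [smul_smul]
      congr 2
      change (D.tr (γ 0) (γ 0) ≫ cls (γ.subpath 0 t) ≫ inv (D.tr (γ t) (γ t))) ≫
        (D.tr (γ t) (γ t) ≫ inv (D.tr (γ t₀) (γ t))) = _
      rw [cls_subpath_trans γ 0 t₀ t, D.tr_eq (γ t₀) (γ t₀) (γ t) (γ.subpath t₀ t) ht]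
      simp
    refine ContinuousAt.congr ?_ (h1.mono fun t ht => ht.symm)
    exact γ.continuous.continuousAt.prodMk continuousAt_const

theorem monodromy_mk {a b : X} (γ : Path a b) (s : S) :
    (D.isCoveringMap_core S).monodromy (Path.Homotopic.Quotient.mk γ) ⟨⟨a, s⟩, rfl⟩ =
      ⟨⟨b, (show FundamentalGroup X x₀ from D.tr a a ≫ cls γ ≫ inv (D.tr b b)) • s⟩, rfl⟩ := by
  rcases γ with ⟨f, rfl, rfl⟩
  set γ : Path (f 0) (f 1) := ⟨f, rfl, rfl⟩ with hγ
  apply Subtype.ext
  change (D.isCoveringMap_core S).liftPath γ _ _ 1 = _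
  have h1 : D.lift S γ s = (D.isCoveringMap_core S).liftPath γ ⟨f 0, s⟩ rfl := by
    rw [IsCoveringMap.eq_liftPath_iff]
    refine ⟨D.continuous_lift S γ s, rfl, ?_⟩
    change (⟨γ 0, (show FundamentalGroup X x₀ from
      D.tr (γ 0) (γ 0) ≫ cls (γ.subpath 0 0) ≫ inv (D.tr (γ 0) (γ 0))) • s⟩ :
        (D.core S).TotalSpace) = ⟨f 0, s⟩
    rw [Path.subpath_self, cls_refl, Category.id_comp, IsIso.hom_inv_id]
    congr 1
    exact one_smul _ s
  refine (congrFun h1.symm 1).trans ?_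
  change (⟨γ 1, (show FundamentalGroup X x₀ from
      D.tr (γ 0) (γ 0) ≫ cls (γ.subpath 0 1) ≫ inv (D.tr (γ 1) (γ 1))) • s⟩ :
        (D.core S).TotalSpace) = _
  rw [Path.subpath_zero_one]
  rfl

end Transport

/-- **Existence of coverings.** Every `π₁(X, x₀)`-set `S` is the fibre over `x₀` of a covering. -/
theorem exists_covering [PathConnectedSpace X] [LocallyPathConnectedSpace X] (hs : SLSC X)
    (x₀ : X) (S : Type v) [MulAction (FundamentalGroup X x₀) S] :
    ∃ (E : Type (max u v)) (_ : TopologicalSpace E) (p : E → X) (hp : IsCoveringMap p)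
      (φ : S ≃ p ⁻¹' {x₀}),
      (∀ (γ : FundamentalGroup X x₀) (s : S), hp.monodromyPerm x₀ γ (φ s) = φ (γ • s)) ∧
      ∀ y, Nonempty (S ≃ p ⁻¹' {y}) := by
  classical
  obtain ⟨D⟩ := nonempty_transport hs x₀
  let : TopologicalSpace S := ⊥
  have : DiscreteTopology S := ⟨rfl⟩
  have hfib : ∀ y, Nonempty (S ≃ (D.core S).proj ⁻¹' {y}) := by
    intro y
    refine ⟨{ toFun := fun s => ⟨⟨y, s⟩, rfl⟩
              invFun := fun e => e.1.2
              left_inv := fun s => rfl
              right_inv := ?_ }⟩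
    rintro ⟨⟨y', s⟩, rfl⟩
    rfl
  let a : FundamentalGroup X x₀ := D.tr x₀ x₀
  let φ : S ≃ (D.core S).proj ⁻¹' {x₀} :=
    { toFun := fun s => ⟨⟨x₀, a⁻¹ • s⟩, rfl⟩
      invFun := fun e => a • (show S from e.1.2)
      left_inv := fun s => smul_inv_smul a s
      right_inv := by
        rintro ⟨⟨y', s⟩, hy⟩
        have hy : y' = x₀ := hy
        subst hy
        refine Subtype.ext ?_
        change (⟨y', a⁻¹ • (a • (show S from s))⟩ : (D.core S).TotalSpace) = ⟨y', s⟩
        rw [inv_smul_smul] }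
  refine ⟨(D.core S).TotalSpace, inferInstance, (D.core S).proj, D.isCoveringMap_core S, φ, ?_,
    hfib⟩
  intro γ s
  rw [IsCoveringMap.coe_monodromyPerm]
  obtain ⟨γ, rfl⟩ := Path.Homotopic.Quotient.mk_surjective γ
  change (D.isCoveringMap_core S).monodromy (Path.Homotopic.Quotient.mk γ) ⟨⟨x₀, a⁻¹ • s⟩, rfl⟩ = _
  rw [D.monodromy_mk S γ]
  refine Subtype.ext ?_
  change (⟨x₀, _⟩ : (D.core S).TotalSpace) = ⟨x₀, a⁻¹ • (show FundamentalGroup X x₀ from
    Path.Homotopic.Quotient.mk γ) • s⟩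
  congr 1
  rw [smul_smul, smul_smul]
  congr 1
  have ha : (a⁻¹ : FundamentalGroup X x₀) = inv (D.tr x₀ x₀) := by
    rw [← Groupoid.inv_eq_inv]
    rfl
  rw [ha]
  change (inv (D.tr x₀ x₀)) ≫ (D.tr x₀ x₀ ≫ cls γ ≫ inv (D.tr x₀ x₀)) = cls γ ≫ inv (D.tr x₀ x₀)
  rw [IsIso.inv_hom_id_assoc]

/-- **The covering with a prescribed stabiliser.** -/
theorem exists_covering_stabilizer [PathConnectedSpace X] [LocallyPathConnectedSpace X]
    (hs : SLSC X) (x₀ : X) (H : Subgroup (FundamentalGroup X x₀)) :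
    ∃ (E : Type u) (_ : TopologicalSpace E) (p : E → X) (hp : IsCoveringMap p) (e : p ⁻¹' {x₀}),
      (∀ γ : FundamentalGroup X x₀, γ ∈ H ↔ hp.monodromyPerm x₀ γ e = e) ∧
      (H.FiniteIndex → ∀ y, (p ⁻¹' {y}).Finite) := by
  obtain ⟨E, _, p, hp, φ, h1, h2⟩ := exists_covering hs x₀ (FundamentalGroup X x₀ ⧸ H)
  refine ⟨E, _, p, hp, φ (QuotientGroup.mk 1), fun γ => ?_, fun hH y => ?_⟩
  · rw [h1, φ.injective.eq_iff, MulAction.Quotient.smul_mk, smul_eq_mul, mul_one]
    rw [eq_comm, QuotientGroup.eq, inv_one, one_mul]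
  · obtain ⟨e⟩ := h2 y
    have : Finite (FundamentalGroup X x₀ ⧸ H) := Subgroup.finite_quotient_of_finiteIndex
    have : Finite (p ⁻¹' {y}) := Finite.of_equiv _ e
    exact Set.toFinite _

end Groth.Agent.An.H867.Cov
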