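import Groth.Agent.An.H867.Cov
import Mathlib.Topology.Homotopy.LocallyContractible
import Mathlib.AlgebraicTopology.FundamentalGroupoid.SimplyConnected

/-!
# Monodromy: transitivity and naturality; strongly locally contractible spaces
-/

set_option autoImplicit false

open CategoryTheory Topology Set Function

universe u v

noncomputable section

namespace Groth.Agent.An.H867.CovTrans

open Cov

variable {X : Type*} {E E' : Type*} [TopologicalSpace X] [TopologicalSpace E] [TopologicalSpace E']

/-- Monodromy is transitive on the fibres of a path connected covering. -/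
theorem exists_monodromy_eq {p : E → X} (hp : IsCoveringMap p) [PathConnectedSpace E] {x : X}
    (e e' : p ⁻¹' {x}) : ∃ γ : FundamentalGroup X x, hp.monodromyPerm x γ e = e' := by
  let Γ : Path.Homotopic.Quotient e.1 e'.1 :=
    Path.Homotopic.Quotient.mk (PathConnectedSpace.somePath e.1 e'.1)
  refine ⟨(Γ.map ⟨p, hp.continuous⟩).cast e.2.symm e'.2.symm, ?_⟩
  rw [IsCoveringMap.coe_monodromyPerm]
  refine hp.monodromy_eq_of_map_eq Γ ?_
  rw [Path.Homotopic.Quotient.cast_cast]
  exact (Path.Homotopic.Quotient.cast_rfl_rfl _).symm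

/-- Naturality of monodromy with respect to maps of coverings. -/
theorem monodromy_comp {p : E → X} (hp : IsCoveringMap p) {q : E' → X} (hq : IsCoveringMap q)
    {ψ : E' → E} (hψ : Continuous ψ) (hpq : ∀ a, p (ψ a) = q a) {x y : X}
    (γ : Path.Homotopic.Quotient x y) (e : q ⁻¹' {x}) :
    ψ (hq.monodromy γ e).1 = (hp.monodromy γ ⟨ψ e.1, (hpq e.1).trans e.2⟩).1 := by
  obtain ⟨γ, rfl⟩ := Path.Homotopic.Quotient.mk_surjective γ
  change ψ (hq.liftPath γ e _ 1) = hp.liftPath γ (ψ e.1) _ 1
  have hγ : γ 0 = p (ψ e.1) := by rw [γ.source, hpq]; exact e.2.symm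
  have h : ψ ∘ hq.liftPath γ e.1 (γ.source.trans e.2.symm) = hp.liftPath γ (ψ e.1) hγ := by
    rw [IsCoveringMap.eq_liftPath_iff]
    refine ⟨hψ.comp (ContinuousMap.continuous _), ?_, ?_⟩
    · funext t
      change p (ψ (hq.liftPath γ e.1 (γ.source.trans e.2.symm) t)) = γ t
      rw [hpq]
      exact congrFun (hq.liftPath_lifts γ e.1 (γ.source.trans e.2.symm)) t
    · change ψ (hq.liftPath γ e.1 (γ.source.trans e.2.symm) 0) = ψ e.1
      rw [hq.liftPath_zero]
  exact congrFun h 1

/-- Stabilisers are preserved by isomorphisms of coverings. -/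
theorem monodromyPerm_eq_iff {p : E → X} (hp : IsCoveringMap p) {q : E' → X} (hq : IsCoveringMap q)
    (ψ : E' ≃ₜ E) (hpq : ∀ a, p (ψ a) = q a) {x : X} (γ : FundamentalGroup X x) (e : p ⁻¹' {x})
    (e' : q ⁻¹' {x}) (he : ψ e'.1 = e.1) :
    hq.monodromyPerm x γ e' = e' ↔ hp.monodromyPerm x γ e = e := by
  have h := monodromy_comp hp hq ψ.continuous hpq γ e'
  have he2 : (⟨ψ e'.1, (hpq e'.1).trans e'.2⟩ : p ⁻¹' {x}) = e := Subtype.ext he
  rw [he2] at h
  rw [IsCoveringMap.coe_monodromyPerm, IsCoveringMap.coe_monodromyPerm]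
  constructor
  · intro h1
    rw [h1, he] at h
    exact Subtype.ext h.symm
  · intro h1
    rw [h1, ← he] at h
    exact Subtype.ext (ψ.injective h)

/-- Paths with the same ends in a simply connected subset are homotopic. -/
theorem homotopic_of_subset {s : Set X} [SimplyConnectedSpace s] {y z : X} (γ δ : Path y z)
    (hγ : range γ ⊆ s) (hδ : range δ ⊆ s) : γ.Homotopic δ := by
  have hy : y ∈ s := hγ ⟨0, γ.source⟩
  have hz : z ∈ s := hγ ⟨1, γ.target⟩
  let γ' : Path (⟨y, hy⟩ : s) ⟨z, hz⟩ :=
    { toFun := fun t => ⟨γ t, hγ ⟨t, rfl⟩⟩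
      continuous_toFun := by fun_prop
      source' := Subtype.ext γ.source
      target' := Subtype.ext γ.target }
  let δ' : Path (⟨y, hy⟩ : s) ⟨z, hz⟩ :=
    { toFun := fun t => ⟨δ t, hδ ⟨t, rfl⟩⟩
      continuous_toFun := by fun_prop
      source' := Subtype.ext δ.source
      target' := Subtype.ext δ.target }
  have h := SimplyConnectedSpace.paths_homotopic γ' δ'
  exact h.map ⟨Subtype.val, continuous_subtype_val⟩

theorem slsc_of_stronglyLocallyContractibleSpace (X : Type*) [TopologicalSpace X]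
    [StronglyLocallyContractibleSpace X] : SLSC X := by
  intro x
  obtain ⟨s, ⟨hs, hc⟩, -⟩ := (contractible_basis x).mem_iff.1 Filter.univ_mem
  have : SimplyConnectedSpace s := inferInstance
  exact ⟨s, hs, fun y z γ δ hγ hδ => homotopic_of_subset γ δ hγ hδ⟩

end Groth.Agent.An.H867.CovTrans
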