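import Groth.Agent.An.H867.LCDef
import Mathlib.Topology.Algebra.MvPolynomial
import Mathlib.Analysis.Complex.Basic

/-!
# From the real contraction theorem to complex polynomials
-/

set_option autoImplicit false

open Topology Filter Set

noncomputable section

namespace Groth.Agent.An.H867.LCPoly

open LCDef

/-- The contraction theorem for finitely many polynomials in real affine space. -/
def Contr (n : ℕ) : Prop :=
  ∀ F : Finset (MvPolynomial (Fin n) ℝ), ∃ (U : Set (Fin n → ℝ)) (h : ℝ → (Fin n → ℝ) → (Fin n → ℝ)),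
    IsContraction 0 U h ∧ ∀ f ∈ F, Compat U h {x | MvPolynomial.eval x f = 0}

variable {N : ℕ}

/-- Real coordinates of `ℂᴺ` centred at `a`. -/
def chart (a : Fin N → ℂ) : (Fin (N + N) → ℝ) ≃ₜ (Fin N → ℂ) where
  toFun x i := a i + (x (Fin.castAdd N i) + x (Fin.natAdd N i) * Complex.I)
  invFun z := Fin.append (fun i => (z i - a i).re) (fun i => (z i - a i).im)
  left_inv x := by
    funext j
    refine Fin.addCases (fun i => ?_) (fun i => ?_) j
    · beta_reduce
      rw [Fin.append_left]
      simp
    · beta_reduce
      rw [Fin.append_right]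
      simp
  right_inv z := by
    funext i
    simp only [Fin.append_left, Fin.append_right]
    rw [Complex.re_add_im]
    ring
  continuous_toFun := by fun_prop
  continuous_invFun := by
    refine continuous_pi fun j => ?_
    refine Fin.addCases (fun i => ?_) (fun i => ?_) j
    · simp only [Fin.append_left]
      fun_prop
    · simp only [Fin.append_right]
      fun_prop

theorem chart_apply (a : Fin N → ℂ) (x : Fin (N + N) → ℝ) (i : Fin N) :
    chart a x i = a i + (x (Fin.castAdd N i) + x (Fin.natAdd N i) * Complex.I) := rfl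

@[simp] theorem chart_zero (a : Fin N → ℂ) : chart a 0 = a := by
  funext i
  simp [chart_apply]

/-- Real and imaginary parts of a complex polynomial in real coordinates. -/
theorem exists_re_im (a : Fin N → ℂ) (p : MvPolynomial (Fin N) ℂ) :
    ∃ q r : MvPolynomial (Fin (N + N)) ℝ, ∀ x, MvPolynomial.eval (chart a x) p =
      (MvPolynomial.eval x q : ℂ) + (MvPolynomial.eval x r : ℂ) * Complex.I := by
  induction p using MvPolynomial.induction_on with
  | C c =>
    refine ⟨MvPolynomial.C c.re, MvPolynomial.C c.im, fun x => ?_⟩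
    simp [Complex.re_add_im]
  | add p p' hp hp' =>
    obtain ⟨q, r, h⟩ := hp
    obtain ⟨q', r', h'⟩ := hp'
    refine ⟨q + q', r + r', fun x => ?_⟩
    rw [map_add, h, h', map_add, map_add]
    push_cast
    ring
  | mul_X p i hp =>
    obtain ⟨q, r, h⟩ := hp
    refine ⟨q * (MvPolynomial.C (a i).re + MvPolynomial.X (Fin.castAdd N i)) -
      r * (MvPolynomial.C (a i).im + MvPolynomial.X (Fin.natAdd N i)),
      r * (MvPolynomial.C (a i).re + MvPolynomial.X (Fin.castAdd N i)) +
      q * (MvPolynomial.C (a i).im + MvPolynomial.X (Fin.natAdd N i)), fun x => ?_⟩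
    rw [map_mul, h, MvPolynomial.eval_X, chart_apply]
    simp only [map_sub, map_mul, map_add, MvPolynomial.eval_C, MvPolynomial.eval_X]
    push_cast
    nth_rewrite 1 [← Complex.re_add_im (a i)]
    linear_combination ((MvPolynomial.eval x) r * ((a i).im + x (Fin.natAdd N i)) : ℂ) *
      Complex.I_mul_I

/-- The contraction theorem for finitely many complex polynomials at a point of `ℂᴺ`. -/
theorem exists_complex (hC : ∀ n, Contr n) (a : Fin N → ℂ) (F : Finset (MvPolynomial (Fin N) ℂ)) :
    ∃ (U : Set (Fin N → ℂ)) (h : ℝ → (Fin N → ℂ) → (Fin N → ℂ)),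
      IsContraction a U h ∧ ∀ f ∈ F, Compat U h {z | MvPolynomial.eval z f = 0} := by
  classical
  choose q r hqr using exists_re_im a
  obtain ⟨U, h, H, hF⟩ := hC (N + N) (F.image q ∪ F.image r)
  refine ⟨chart a '' U, fun t y => chart a (h t ((chart a).symm y)), ?_, ?_⟩
  · simpa using H.image_homeomorph (chart a)
  · rintro f hf t ht _ ⟨x, hx, rfl⟩
    have h1 : ∀ y, MvPolynomial.eval (chart a y) f = 0 ↔
        MvPolynomial.eval y (q f) = 0 ∧ MvPolynomial.eval y (r f) = 0 := by
      intro y
      rw [hqr, Complex.ext_iff]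
      simp
    change MvPolynomial.eval (chart a (h t ((chart a).symm (chart a x)))) f = 0 ↔
      MvPolynomial.eval (chart a x) f = 0
    rw [Homeomorph.symm_apply_apply, h1, h1]
    have h2 : MvPolynomial.eval (h t x) (q f) = 0 ↔ MvPolynomial.eval x (q f) = 0 :=
      hF (q f) (Finset.mem_union_left _ (Finset.mem_image_of_mem q hf)) t ht x hx
    have h3 : MvPolynomial.eval (h t x) (r f) = 0 ↔ MvPolynomial.eval x (r f) = 0 :=
      hF (r f) (Finset.mem_union_right _ (Finset.mem_image_of_mem r hf)) t ht x hx
    rw [h2, h3]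

end Groth.Agent.An.H867.LCPoly
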