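import Groth.Agent.An.H867.LCPts
import Groth.Agent.An.H881.Contr2

/-!
# Local contractibility of `X(ℂ)`, unconditional form
-/

set_option autoImplicit false

open CategoryTheory AlgebraicGeometry Topology TopologicalSpace Set

noncomputable section

namespace Groth.Agent.An.H867.LC

open LCDef LCPoly

variable {X : Scheme.{0}} [X.Over An.SC] [LocallyOfFiniteType (X ↘ An.SC)]

/-- **Local contractibility of `X(ℂ)`**, compatible with finitely many locally constructible
subsets. -/
theorem exists_contraction (x₀ : An.Pts X) (𝒵 : Set (Set X)) (hfin : 𝒵.Finite)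
    (h𝒵 : ∀ Z ∈ 𝒵, IsLocallyConstructible Z) :
    ∃ (W : Set (An.Pts X)) (h : ℝ → An.Pts X → An.Pts X), IsContraction x₀ W h ∧
      ∀ Z ∈ 𝒵, Compat W h (An.Pts.pt ⁻¹' Z) :=
  LCPts.exists_contraction_of H881.Contr2.contr x₀ 𝒵 hfin h𝒵

variable (X) in
/-- The space of complex points is strongly locally contractible; in particular it is locally path
connected. -/
theorem stronglyLocallyContractibleSpace : StronglyLocallyContractibleSpace (An.Pts X) :=
  LCPts.stronglyLocallyContractibleSpace_of_contr H881.Contr2.contr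

/-- Every point of `X(ℂ)` has a basis of contractible open neighbourhoods. -/
theorem exists_contractible_subset (x₀ : An.Pts X) {O : Set (An.Pts X)} (hO : O ∈ 𝓝 x₀) :
    ∃ W ⊆ O, IsOpen W ∧ x₀ ∈ W ∧ ContractibleSpace W := by
  obtain ⟨U, h, H, -⟩ := exists_contraction x₀ ∅ Set.finite_empty (by simp)
  obtain ⟨W, hWO, -, hW⟩ := H.exists_subset hO
  exact ⟨W, hWO, hW.isOpen, hW.mem, hW.contractibleSpace⟩

end Groth.Agent.An.H867.LC
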