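import Mathlib.Topology.Homotopy.Contractible
import Mathlib.Topology.Homotopy.LocallyContractible
import Mathlib.AlgebraicTopology.FundamentalGroupoid.SimplyConnected
import Mathlib.Analysis.Complex.Basic

/-!
# Contractions of neighbourhoods of a point

`IsContraction a U h`: `h` contracts the open neighbourhood `U` of `a` to `a`, and `a` has a basis of
neighbourhoods which are invariant under `h`.  `Compat h U Z`: for `t < 1` the homotopy preserves
the subset `Z` and its complement.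
-/

set_option autoImplicit false

open Topology Filter Set

noncomputable section

namespace Groth.Agent.An.H867.LCDef

variable {T S : Type*}

/-- `h` is a contraction of the open neighbourhood `U` of `a` onto `a`, and the `h`-invariant
open neighbourhoods of `a` form a basis of neighbourhoods. -/
structure IsContraction [TopologicalSpace T] (a : T) (U : Set T) (h : ℝ → T → T) : Prop where
  isOpen : IsOpen U
  mem : a ∈ U
  cont : ContinuousOn (Function.uncurry h) (Icc (0 : ℝ) 1 ×ˢ U)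
  zero : ∀ x ∈ U, h 0 x = x
  one : ∀ x ∈ U, h 1 x = a
  fix : ∀ t ∈ Icc (0 : ℝ) 1, h t a = a
  maps : ∀ t ∈ Icc (0 : ℝ) 1, ∀ x ∈ U, h t x ∈ U
  basis : ∀ O ∈ 𝓝 a, ∃ W ⊆ O ∩ U, IsOpen W ∧ a ∈ W ∧ ∀ t ∈ Icc (0 : ℝ) 1, ∀ x ∈ W, h t x ∈ W

/-- For `t < 1` the homotopy preserves `Z` and its complement. -/
def Compat (U : Set T) (h : ℝ → T → T) (Z : Set T) : Prop :=
  ∀ t ∈ Ico (0 : ℝ) 1, ∀ x ∈ U, (h t x ∈ Z ↔ x ∈ Z)

theorem Compat.mono {U W : Set T} {h : ℝ → T → T} {Z : Set T} (hc : Compat U h Z) (hW : W ⊆ U) :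
    Compat W h Z := fun t ht x hx => hc t ht x (hW hx)

namespace IsContraction

variable [TopologicalSpace T] [TopologicalSpace S] {a : T} {U : Set T} {h : ℝ → T → T}

/-- Restriction to an invariant open neighbourhood. -/
theorem restrict (H : IsContraction a U h) {W : Set T} (hWU : W ⊆ U) (hW : IsOpen W) (ha : a ∈ W)
    (hm : ∀ t ∈ Icc (0 : ℝ) 1, ∀ x ∈ W, h t x ∈ W) : IsContraction a W h where
  isOpen := hW
  mem := ha
  cont := H.cont.mono (prod_mono le_rfl hWU)
  zero x hx := H.zero x (hWU hx)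
  one x hx := H.one x (hWU hx)
  fix := H.fix
  maps := hm
  basis O hO := by
    obtain ⟨V, hV, h1, h2, h3⟩ := H.basis (O ∩ W) (inter_mem hO (hW.mem_nhds ha))
    exact ⟨V, fun x hx => (hV hx).1, h1, h2, h3⟩

/-- Invariant neighbourhoods inside a given one. -/
theorem exists_subset (H : IsContraction a U h) {O : Set T} (hO : O ∈ 𝓝 a) :
    ∃ W ⊆ O, W ⊆ U ∧ IsContraction a W h := by
  obtain ⟨W, hW, h1, h2, h3⟩ := H.basis O hO
  exact ⟨W, fun x hx => (hW hx).1, fun x hx => (hW hx).2,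
    H.restrict (fun x hx => (hW hx).2) h1 h2 h3⟩

theorem continuousAt_uncurry (H : IsContraction a U h) (x : U) (t : Icc (0 : ℝ) 1) :
    ContinuousWithinAt (Function.uncurry h) (Icc (0 : ℝ) 1 ×ˢ U) (t.1, x.1) :=
  H.cont _ ⟨t.2, x.2⟩

/-- The homotopy on the subtype. -/
theorem continuous_restrict (H : IsContraction a U h) :
    Continuous (fun q : unitInterval × U => (⟨h q.1 q.2, H.maps q.1 q.1.2 q.2 q.2.2⟩ : U)) := by
  refine Continuous.subtype_mk ?_ _
  have h1 : Continuous (fun q : unitInterval × U =>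
      (⟨(q.1.1, q.2.1), ⟨q.1.2, q.2.2⟩⟩ : (Icc (0 : ℝ) 1 ×ˢ U : Set (ℝ × T)))) := by
    fun_prop
  exact (continuousOn_iff_continuous_domRestrict.1 H.cont).comp h1

/-- A contracted neighbourhood is contractible. -/
theorem contractibleSpace (H : IsContraction a U h) : ContractibleSpace U := by
  rw [contractible_iff_id_nullhomotopic]
  refine ⟨⟨a, H.mem⟩, ⟨?_⟩⟩
  exact
    { toFun := fun q => ⟨h q.1 q.2, H.maps q.1 q.1.2 q.2 q.2.2⟩
      continuous_toFun := H.continuous_restrict
      map_zero_left := fun x => Subtype.ext (H.zero x x.2)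
      map_one_left := fun x => Subtype.ext (H.one x x.2) }

theorem isPathConnected (H : IsContraction a U h) : IsPathConnected U := by
  have := H.contractibleSpace
  rw [isPathConnected_iff_pathConnectedSpace]
  infer_instance

/-- Transport along a homeomorphism. -/
theorem image_homeomorph (H : IsContraction a U h) (e : T ≃ₜ S) :
    IsContraction (e a) (e '' U) (fun t y => e (h t (e.symm y))) where
  isOpen := e.isOpenMap _ H.isOpen
  mem := mem_image_of_mem e H.mem
  cont := by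
    have h1 : ContinuousOn (fun q : ℝ × S => (q.1, e.symm q.2)) (Icc (0 : ℝ) 1 ×ˢ (e '' U)) := by
      fun_prop
    have h2 : MapsTo (fun q : ℝ × S => (q.1, e.symm q.2)) (Icc (0 : ℝ) 1 ×ˢ (e '' U))
        (Icc (0 : ℝ) 1 ×ˢ U) := by
      rintro ⟨t, y⟩ ⟨ht, x, hx, rfl⟩
      exact ⟨ht, by simpa using hx⟩
    exact e.continuous.comp_continuousOn (H.cont.comp h1 h2)
  zero := by
    rintro _ ⟨x, hx, rfl⟩
    simp [H.zero x hx]
  one := by
    rintro _ ⟨x, hx, rfl⟩
    simp [H.one x hx]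
  fix t ht := by simp [H.fix t ht]
  maps := by
    rintro t ht _ ⟨x, hx, rfl⟩
    refine ⟨h t x, H.maps t ht x hx, by simp⟩
  basis O hO := by
    obtain ⟨W, hW, h1, h2, h3⟩ := H.basis (e ⁻¹' O) (e.continuous.continuousAt.preimage_mem_nhds hO)
    refine ⟨e '' W, ?_, e.isOpenMap _ h1, mem_image_of_mem e h2, ?_⟩
    · rintro _ ⟨x, hx, rfl⟩
      exact ⟨(hW hx).1, x, (hW hx).2, rfl⟩
    · rintro t ht _ ⟨x, hx, rfl⟩
      exact ⟨h t x, h3 t ht x hx, by simp⟩

/-- Restriction of a contraction to an embedded subspace which is invariant near the point. -/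
theorem comap_isEmbedding (H : IsContraction a U h) {F : S → T} (hF : IsEmbedding F) {b : S}
    (hb : F b = a) (hr : ∀ t ∈ Icc (0 : ℝ) 1, ∀ x ∈ U, x ∈ range F → h t x ∈ range F) :
    ∃ k : ℝ → S → S, IsContraction b (F ⁻¹' U) k ∧
      ∀ t ∈ Icc (0 : ℝ) 1, ∀ s, F s ∈ U → F (k t s) = h t (F s) := by
  classical
  have : Nonempty S := ⟨b⟩
  let k : ℝ → S → S := fun t s => Function.invFun F (h t (F s))
  have hk : ∀ t ∈ Icc (0 : ℝ) 1, ∀ s, F s ∈ U → F (k t s) = h t (F s) := by
    intro t ht s hs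
    exact Function.invFun_eq (hr t ht (F s) hs ⟨s, rfl⟩)
  refine ⟨k, ⟨H.isOpen.preimage hF.continuous, by simpa [hb] using H.mem, ?_, ?_, ?_, ?_, ?_, ?_⟩,
    hk⟩
  · rw [hF.isInducing.continuousOn_iff]
    have h1 : ContinuousOn (fun q : ℝ × S => (q.1, F q.2)) (Icc (0 : ℝ) 1 ×ˢ (F ⁻¹' U)) := by
      have := hF.continuous
      fun_prop
    have h2 : MapsTo (fun q : ℝ × S => (q.1, F q.2)) (Icc (0 : ℝ) 1 ×ˢ (F ⁻¹' U))
        (Icc (0 : ℝ) 1 ×ˢ U) := fun q hq => ⟨hq.1, hq.2⟩
    refine (H.cont.comp h1 h2).congr ?_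
    rintro ⟨t, s⟩ ⟨ht, hs⟩
    exact hk t ht s hs
  · intro s hs
    exact hF.injective ((hk 0 (by simp) s hs).trans (H.zero _ hs))
  · intro s hs
    exact hF.injective ((hk 1 (by simp) s hs).trans ((H.one _ hs).trans hb.symm))
  · intro t ht
    have hbU : F b ∈ U := by rw [hb]; exact H.mem
    refine hF.injective ((hk t ht b hbU).trans ?_)
    rw [hb]
    exact H.fix t ht
  · intro t ht s hs
    change F (k t s) ∈ U
    rw [hk t ht s hs]
    exact H.maps t ht _ hs
  · intro O hO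
    rw [hF.isInducing.nhds_eq_comap, hb, mem_comap] at hO
    obtain ⟨O', hO', hsub⟩ := hO
    obtain ⟨W, hW, h1, h2, h3⟩ := H.basis O' hO'
    refine ⟨F ⁻¹' W, fun s hs => ⟨hsub (hW hs).1, (hW hs).2⟩, h1.preimage hF.continuous,
      by simpa [hb] using h2, ?_⟩
    intro t ht s hs
    change F (k t s) ∈ W
    rw [hk t ht s (hW hs).2]
    exact h3 t ht _ hs

/-- Extension of a contraction along an open embedding. -/
theorem image_isOpenEmbedding {s : S} {U : Set S} {h : ℝ → S → S} (H : IsContraction s U h)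
    {F : S → T} (hF : IsOpenEmbedding F) :
    ∃ k : ℝ → T → T, IsContraction (F s) (F '' U) k ∧ ∀ t x, k t (F x) = F (h t x) := by
  classical
  have : Nonempty S := ⟨s⟩
  let k : ℝ → T → T := fun t y => F (h t (Function.invFun F y))
  have hinv : ∀ x, Function.invFun F (F x) = x := Function.leftInverse_invFun hF.injective
  have hk : ∀ t x, k t (F x) = F (h t x) := by
    intro t x
    change F (h t (Function.invFun F (F x))) = _
    rw [hinv]
  refine ⟨k, ⟨hF.isOpenMap _ H.isOpen, mem_image_of_mem F H.mem, ?_, ?_, ?_, ?_, ?_, ?_⟩, hk⟩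
  · have hi : ContinuousOn (Function.invFun F) (range F) := by
      rintro _ ⟨x, rfl⟩
      refine ContinuousAt.continuousWithinAt ?_
      rw [ContinuousAt, ← hF.map_nhds_eq, tendsto_map'_iff]
      have : Function.invFun F ∘ F = id := funext hinv
      rw [this, hinv]
      exact tendsto_id
    have h1 : ContinuousOn (fun q : ℝ × T => (q.1, Function.invFun F q.2))
        (Icc (0 : ℝ) 1 ×ˢ (F '' U)) := by
      refine continuousOn_fst.prodMk (hi.comp continuousOn_snd ?_)
      rintro ⟨t, y⟩ ⟨-, x, -, rfl⟩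
      exact ⟨x, rfl⟩
    have h2 : MapsTo (fun q : ℝ × T => (q.1, Function.invFun F q.2))
        (Icc (0 : ℝ) 1 ×ˢ (F '' U)) (Icc (0 : ℝ) 1 ×ˢ U) := by
      rintro ⟨t, y⟩ ⟨ht, x, hx, rfl⟩
      exact ⟨ht, by simpa [hinv] using hx⟩
    exact hF.continuous.comp_continuousOn (H.cont.comp h1 h2)
  · rintro _ ⟨x, hx, rfl⟩
    rw [hk, H.zero x hx]
  · rintro _ ⟨x, hx, rfl⟩
    rw [hk, H.one x hx]
  · intro t ht
    rw [hk, H.fix t ht]
  · rintro t ht _ ⟨x, hx, rfl⟩
    rw [hk]
    exact mem_image_of_mem F (H.maps t ht x hx)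
  · intro O hO
    obtain ⟨W, hW, h1, h2, h3⟩ := H.basis (F ⁻¹' O)
      (hF.continuous.continuousAt.preimage_mem_nhds hO)
    refine ⟨F '' W, ?_, hF.isOpenMap _ h1, mem_image_of_mem F h2, ?_⟩
    · rintro _ ⟨x, hx, rfl⟩
      exact ⟨(hW hx).1, x, (hW hx).2, rfl⟩
    · rintro t ht _ ⟨x, hx, rfl⟩
      rw [hk]
      exact mem_image_of_mem F (h3 t ht x hx)

end IsContraction

/-! ### Compatible subsets -/

section Compat

variable {U : Set T} {h : ℝ → T → T}

theorem Compat.compl {Z : Set T} (hZ : Compat U h Z) : Compat U h Zᶜ :=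
  fun t ht x hx => not_congr (hZ t ht x hx)

theorem Compat.union {Z Z' : Set T} (hZ : Compat U h Z) (hZ' : Compat U h Z') :
    Compat U h (Z ∪ Z') :=
  fun t ht x hx => or_congr (hZ t ht x hx) (hZ' t ht x hx)

theorem Compat.inter {Z Z' : Set T} (hZ : Compat U h Z) (hZ' : Compat U h Z') :
    Compat U h (Z ∩ Z') :=
  fun t ht x hx => and_congr (hZ t ht x hx) (hZ' t ht x hx)

end Compat

variable [TopologicalSpace T]

/-- A space all of whose points have contracted neighbourhoods as above is strongly locally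
contractible, in particular locally path connected. -/
theorem stronglyLocallyContractibleSpace_of
    (H : ∀ a : T, ∃ (U : Set T) (h : ℝ → T → T), IsContraction a U h) :
    StronglyLocallyContractibleSpace T := by
  refine ⟨fun a => ?_⟩
  obtain ⟨U, h, hc⟩ := H a
  refine hasBasis_iff.2 fun O => ⟨fun hO => ?_, ?_⟩
  · obtain ⟨W, hW, -, hcW⟩ := hc.exists_subset hO
    exact ⟨W, ⟨hcW.isOpen.mem_nhds hcW.mem, hcW.contractibleSpace⟩, hW⟩
  · rintro ⟨W, ⟨h1, -⟩, h2⟩
    exact mem_of_superset h1 h2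

end Groth.Agent.An.H867.LCDef
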