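import Groth.Agent.An.H867.LCPoly
import Groth.Agent.An.H867.Nhds
import Groth.Agent.An.H862.AffTop

/-!
# Local contractibility of the space of complex points

For `X` locally of finite type over `ℂ`, a complex point `x₀` and finitely many locally constructible
subsets `Z` of `X` there is a contraction of a neighbourhood of `x₀` to `x₀`, compatible for `t < 1`
with the `Z`, for which `x₀` has a basis of invariant neighbourhoods.
-/

set_option autoImplicit false

open CategoryTheory AlgebraicGeometry Topology TopologicalSpace Opposite Set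
open Groth.Agent.An.H863.PtsBasic

noncomputable section

namespace Groth.Agent.An.H867.LCPts

open LCDef LCPoly

/-- Membership in a constructible subset of `Spec A` is determined by the vanishing of finitely many
elements of `A`. -/
theorem exists_finset_of_isConstructible {A : Type*} [CommRing A] {T : Set (PrimeSpectrum A)}
    (hT : IsConstructible T) : ∃ S : Finset A, ∀ p q : PrimeSpectrum A,
      (∀ f ∈ S, f ∈ p.asIdeal ↔ f ∈ q.asIdeal) → (p ∈ T ↔ q ∈ T) := by
  classical
  obtain ⟨D, rfl⟩ := PrimeSpectrum.exists_constructibleSetData_iff.2 hT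
  refine ⟨D.biUnion fun C => insert C.f (Finset.univ.image C.g), fun p q h => ?_⟩
  simp only [PrimeSpectrum.ConstructibleSetData.toSet, mem_iUnion, exists_prop]
  refine exists_congr fun C => and_congr_right fun hC => ?_
  have h1 : ∀ f ∈ insert C.f (Finset.univ.image C.g), f ∈ p.asIdeal ↔ f ∈ q.asIdeal :=
    fun f hf => h f (Finset.mem_biUnion.2 ⟨C, hC, hf⟩)
  simp only [PrimeSpectrum.BasicConstructibleSetData.toSet, mem_sdiff, PrimeSpectrum.mem_zeroLocus,
    singleton_subset_iff, SetLike.mem_coe, range_subset_iff]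
  refine and_congr (forall_congr' fun i => h1 _ ?_) (not_congr (h1 _ ?_))
  · exact Finset.mem_insert_of_mem (Finset.mem_image_of_mem _ (Finset.mem_univ i))
  · exact Finset.mem_insert_self _ _

variable {X : Scheme.{0}} [X.Over An.SC]

/-- The range of the embedding of an affine chart. -/
theorem mem_range_iff [LocallyOfFiniteType (X ↘ An.SC)] (U : X.Opens)
    (hUa : IsAffineOpen U) {ι : Type*} (s : ι → Γ(X, U))
    (hs : Function.Surjective (MvPolynomial.eval₂Hom (strU U) s)) (z : ι → ℂ) :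
    z ∈ range (fun (x : {x : An.Pts X // x.pt ∈ U}) (i : ι) => x.1.ev U x.2 (s i)) ↔
      ∀ p : MvPolynomial ι ℂ, MvPolynomial.eval₂Hom (strU U) s p = 0 →
        MvPolynomial.eval z p = 0 := by
  constructor
  · rintro ⟨x, rfl⟩ p hp
    have h1 := Groth.Agent.An.H862.AffTop.ev_eval₂Hom x.1 U x.2 s p
    rw [← h1, hp, ev_zero]
  · intro hz
    let φ : Γ(X, U) →+* ℂ :=
      RingHom.liftOfSurjective (MvPolynomial.eval₂Hom (strU U) s) hs
        ⟨MvPolynomial.eval z, by
          intro p hp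
          exact hz p hp⟩
    have hφ : ∀ p, φ (MvPolynomial.eval₂Hom (strU U) s p) = MvPolynomial.eval z p := by
      intro p
      exact RingHom.liftOfRightInverse_comp_apply _ _ _ _ p
    have hφc : ∀ c, φ (strU U c) = c := by
      intro c
      have := hφ (MvPolynomial.C c)
      rw [MvPolynomial.coe_eval₂Hom, MvPolynomial.eval₂_C, MvPolynomial.eval_C] at this
      exact this
    obtain ⟨x, hx, hev⟩ := Groth.Agent.An.H867.Nhds.exists_pts_of_ringHom U hUa φ hφc
    refine ⟨⟨x, hx⟩, ?_⟩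
    funext i
    change x.ev U hx (s i) = z i
    rw [← evHom_apply, hev]
    have := hφ (MvPolynomial.X i)
    rw [MvPolynomial.coe_eval₂Hom, MvPolynomial.eval₂_X, MvPolynomial.eval_X] at this
    exact this

/-- The range of the embedding of an affine chart is cut out by finitely many polynomials. -/
theorem exists_finset_range [LocallyOfFiniteType (X ↘ An.SC)] (U : X.Opens)
    (hUa : IsAffineOpen U) {n : ℕ} (s : Fin n → Γ(X, U))
    (hs : Function.Surjective (MvPolynomial.eval₂Hom (strU U) s)) :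
    ∃ G : Finset (MvPolynomial (Fin n) ℂ), ∀ z : Fin n → ℂ,
      z ∈ range (fun (x : {x : An.Pts X // x.pt ∈ U}) (i : Fin n) => x.1.ev U x.2 (s i)) ↔
        ∀ g ∈ G, MvPolynomial.eval z g = 0 := by
  obtain ⟨G, hG⟩ : (RingHom.ker (MvPolynomial.eval₂Hom (strU U) s)).FG :=
    IsNoetherian.noetherian _
  refine ⟨G, fun z => ?_⟩
  rw [mem_range_iff U hUa s hs z]
  constructor
  · intro h g hg
    refine h g ?_
    rw [← RingHom.mem_ker, ← hG]
    exact Ideal.subset_span hg
  · intro h p hp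
    have h1 : Ideal.span (G : Set (MvPolynomial (Fin n) ℂ)) ≤ RingHom.ker (MvPolynomial.eval z) := by
      rw [Ideal.span_le]
      intro g hg
      exact h g hg
    rw [← RingHom.mem_ker, ← hG] at hp
    exact h1 hp

/-- **Local contractibility of `X(ℂ)`**, given the contraction theorem in real affine spaces. -/
theorem exists_contraction_of (hC : ∀ n, Contr n) [LocallyOfFiniteType (X ↘ An.SC)]
    (x₀ : An.Pts X) (𝒵 : Set (Set X)) (hfin : 𝒵.Finite)
    (h𝒵 : ∀ Z ∈ 𝒵, IsLocallyConstructible Z) :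
    ∃ (W : Set (An.Pts X)) (h : ℝ → An.Pts X → An.Pts X), IsContraction x₀ W h ∧
      ∀ Z ∈ 𝒵, Compat W h (An.Pts.pt ⁻¹' Z) := by
  classical
  obtain ⟨U, hU, hxU, -⟩ := exists_isAffineOpen_mem_and_subset (x := x₀.pt) (U := ⊤) trivial
  obtain ⟨n, s, hs⟩ := Groth.Agent.An.H862.AffTop.exists_gen U hU
  set π := MvPolynomial.eval₂Hom (strU U) s with hπ
  let F : {x : An.Pts X // x.pt ∈ U} → (Fin n → ℂ) := fun x i => x.1.ev U x.2 (s i)
  have hF : IsClosedEmbedding F := Groth.Agent.An.H862.AffTop.isClosedEmbedding_opens U hU s hs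
  obtain ⟨G, hG⟩ := exists_finset_range U hU s hs
  -- finitely many functions describing the constructible sets
  have hZ : ∀ Z : 𝒵, ∃ S : Finset Γ(X, U), ∀ x y : An.Pts X, ∀ (hx : x.pt ∈ U) (hy : y.pt ∈ U),
      (∀ f ∈ S, x.ev U hx f = 0 ↔ y.ev U hy f = 0) → (x.pt ∈ Z.1 ↔ y.pt ∈ Z.1) := by
    intro Z
    have hT : IsConstructible (hU.fromSpec ⁻¹' Z.1) :=
      ((h𝒵 Z.1 Z.2).preimage_of_isOpenEmbedding hU.fromSpec.isOpenEmbedding).isConstructible
    obtain ⟨S, hS⟩ := exists_finset_of_isConstructible hT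
    refine ⟨S, fun x y hx hy hxy => ?_⟩
    have h1 := hS (Alg.kerPt (evHom x U hx)) (Alg.kerPt (evHom y U hy)) (fun f hf => hxy f hf)
    have h2 := Nhds.fromSpec_kerPt x U hU hx
    have h3 := Nhds.fromSpec_kerPt y U hU hy
    change hU.fromSpec (Alg.kerPt (evHom x U hx)) ∈ Z.1 ↔
      hU.fromSpec (Alg.kerPt (evHom y U hy)) ∈ Z.1 at h1
    rwa [h2, h3] at h1
  choose S hS using hZ
  have : Finite 𝒵 := hfin
  have : Fintype 𝒵 := Fintype.ofFinite _
  choose σ hσ using hs
  let P : Finset (MvPolynomial (Fin n) ℂ) := G ∪ Finset.univ.biUnion fun Z => (S Z).image σ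
  obtain ⟨V, h, H, hP⟩ := exists_complex hC (F ⟨x₀, hxU⟩) P
  have hev : ∀ (x : {x : An.Pts X // x.pt ∈ U}) (f : Γ(X, U)),
      x.1.ev U x.2 f = MvPolynomial.eval (F x) (σ f) := by
    intro x f
    rw [← Groth.Agent.An.H862.AffTop.ev_eval₂Hom x.1 U x.2 s (σ f), hσ]
  -- invariance of the range
  have hr : ∀ t ∈ Icc (0 : ℝ) 1, ∀ z ∈ V, z ∈ range F → h t z ∈ range F := by
    intro t ht z hz hzr
    rcases lt_or_eq_of_le ht.2 with h1 | h1
    · refine (hG _).2 fun g hg => ?_
      exact (hP g (Finset.mem_union_left _ hg) t ⟨ht.1, h1⟩ z hz).2 ((hG z).1 hzr g hg)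
    · rw [h1, H.one z hz]
      exact ⟨_, rfl⟩
  obtain ⟨k, hk, hkF⟩ := H.comap_isEmbedding hF.isEmbedding (b := ⟨x₀, hxU⟩) rfl hr
  have hi : IsOpenEmbedding (Subtype.val : {x : An.Pts X // x.pt ∈ U} → An.Pts X) :=
    (An.Pts.isOpen_preimage_pt U).isOpenEmbedding_subtypeVal
  obtain ⟨k', hk', hk'i⟩ := hk.image_isOpenEmbedding hi
  refine ⟨_, k', hk', ?_⟩
  rintro Z hZ t ht _ ⟨x, hx, rfl⟩
  rw [hk'i]
  refine hS ⟨Z, hZ⟩ _ _ (k t x).2 x.2 fun f hf => ?_
  rw [hev, hev, hkF t ⟨ht.1, ht.2.le⟩ x hx]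
  refine hP (σ f) (Finset.mem_union_right _ ?_) t ht (F x) hx
  exact Finset.mem_biUnion.2 ⟨⟨Z, hZ⟩, Finset.mem_univ _, Finset.mem_image_of_mem _ hf⟩

/-- `X(ℂ)` is strongly locally contractible, given the contraction theorem. -/
theorem stronglyLocallyContractibleSpace_of_contr (hC : ∀ n, Contr n)
    [LocallyOfFiniteType (X ↘ An.SC)] : StronglyLocallyContractibleSpace (An.Pts X) := by
  refine stronglyLocallyContractibleSpace_of fun x₀ => ?_
  obtain ⟨W, h, H, -⟩ := exists_contraction_of hC x₀ ∅ Set.finite_empty (by simp)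
  exact ⟨W, h, H⟩

end Groth.Agent.An.H867.LCPts
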