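import Groth.Agent.An.H867.CovTrans
import Groth.Agent.S4191
import Groth.Prelude.Def_FEt

/-!
# S4221 from Riemann's existence theorem and local contractibility
-/

set_option autoImplicit false

open CategoryTheory AlgebraicGeometry Topology TopologicalSpace

noncomputable section

namespace Groth.Agent.An.H867.S4221_of

open Cov CovTrans

/-- The structure morphism of a finite étale cover is locally of finite type over `ℂ`. -/
theorem locallyOfFiniteType_left (X : Scheme.{0}) [X.Over An.SC]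
    [LocallyOfFiniteType (X ↘ An.SC)] (Y : FEt.Cat X) : LocallyOfFiniteType (Y.left ↘ An.SC) := by
  have h1 : IsFinite (Y.left ↘ X) := Y.prop.1
  have h2 : (Y.left ↘ An.SC) = (Y.left ↘ X) ≫ (X ↘ An.SC) := rfl
  rw [h2]
  infer_instance

/-- S4221, given Riemann's existence theorem over `X` and local contractibility of spaces of
complex points. -/
theorem of_ret
    (hLC : ∀ (Z : Scheme.{0}) [Z.Over An.SC] [LocallyOfFiniteType (Z ↘ An.SC)],
      StronglyLocallyContractibleSpace (An.Pts Z))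
    (X : Scheme.{0}) [X.Over An.SC]
    [LocallyOfFiniteType (X ↘ An.SC)] [ConnectedSpace ↥X]
    (hRET : ∀ (E : Type) [TopologicalSpace E] (p : E → An.Pts X) (_ : IsCoveringMap p)
      (_ : ∀ x : An.Pts X, (p ⁻¹' {x}).Finite),
      ∃ (Y : FEt.Cat X) (e : An.Pts Y.left ≃ₜ E), ∀ a : An.Pts Y.left,
        p (e a) = An.Pts.map (Y.left ↘ X) a)
    (x : An.Pts X)
    (hc : ∀ Y : FEt.Cat X, IsCoveringMap (An.Pts.map (Y.left ↘ X))) :
    (∀ Y : FEt.Cat X, ConnectedSpace ↥Y.left →
      ∀ e e' : An.Pts.map (Y.left ↘ X) ⁻¹' {x},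
        ∃ γ : FundamentalGroup (An.Pts X) x, (hc Y).monodromyPerm x γ e = e') ∧
    (∀ H : Subgroup (FundamentalGroup (An.Pts X) x), H.FiniteIndex →
      ∃ (Y : FEt.Cat X) (e : An.Pts.map (Y.left ↘ X) ⁻¹' {x}),
        ∀ γ : FundamentalGroup (An.Pts X) x, γ ∈ H ↔ (hc Y).monodromyPerm x γ e = e) := by
  have hpc : ∀ (Z : Scheme.{0}) [Z.Over An.SC] [LocallyOfFiniteType (Z ↘ An.SC)],
      ConnectedSpace ↥Z → PathConnectedSpace (An.Pts Z) := by
    intro Z _ _ hZ
    have := hLC Z
    have h1 : ConnectedSpace (An.Pts Z) := (S4191.result Z).1 hZ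
    exact pathConnectedSpace_iff_connectedSpace.2 h1
  refine ⟨fun Y hY e e' => ?_, fun H hH => ?_⟩
  · have := locallyOfFiniteType_left X Y
    have := hpc Y.left hY
    exact exists_monodromy_eq (hc Y) e e'
  · have := hpc X inferInstance
    have := hLC X
    obtain ⟨E, _, p, hp, e, h1, h2⟩ := exists_covering_stabilizer
      (slsc_of_stronglyLocallyContractibleSpace (An.Pts X)) x H
    obtain ⟨Y, ψ, hψ⟩ := hRET E p hp (h2 hH)
    have he : An.Pts.map (Y.left ↘ X) (ψ.symm e.1) = x := by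
      rw [← hψ, ψ.apply_symm_apply]
      exact e.2
    refine ⟨Y, ⟨ψ.symm e.1, he⟩, fun γ => ?_⟩
    rw [h1 γ]
    exact (monodromyPerm_eq_iff hp (hc Y) ψ hψ γ e ⟨ψ.symm e.1, he⟩ (ψ.apply_symm_apply _)).symm

end Groth.Agent.An.H867.S4221_of
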