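import Groth.Agent.An.H867.LC
import Groth.Agent.An.H867.S4221_of

/-!
# S4221 from Riemann's existence theorem only
-/

set_option autoImplicit false

open CategoryTheory AlgebraicGeometry Topology TopologicalSpace

noncomputable section

namespace Groth.Agent.An.H867.Ret4221

/-- S4221, given the statement of S4207 for `X`. -/
theorem of_ret (X : Scheme.{0}) [X.Over An.SC]
    [LocallyOfFiniteType (X ↘ An.SC)] [ConnectedSpace ↥X]
    (hRET : ∀ (E : Type) [TopologicalSpace E] (p : E → An.Pts X) (_ : IsCoveringMap p)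
      (_ : ∀ x : An.Pts X, (p ⁻¹' {x}).Finite),
      ∃ (Y : FEt.Cat X) (e : An.Pts Y.left ≃ₜ E), ∀ a : An.Pts Y.left,
        p (e a) = An.Pts.map (Y.left ↘ X) a)
    (x : An.Pts X)
    (hc : ∀ Y : FEt.Cat X, IsCoveringMap (An.Pts.map (Y.left ↘ X))) :
    (∀ Y : FEt.Cat X, ConnectedSpace ↥Y.left →
      ∀ e e' : An.Pts.map (Y.left ↘ X) ⁻¹' {x},
        ∃ γ : FundamentalGroup (An.Pts X) x, (hc Y).monodromyPerm x γ e = e') ∧
    (∀ H : Subgroup (FundamentalGroup (An.Pts X) x), H.FiniteIndex →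
      ∃ (Y : FEt.Cat X) (e : An.Pts.map (Y.left ↘ X) ⁻¹' {x}),
        ∀ γ : FundamentalGroup (An.Pts X) x, γ ∈ H ↔ (hc Y).monodromyPerm x γ e = e) :=
  S4221_of.of_ret (fun Z _ _ => LC.stronglyLocallyContractibleSpace Z) X hRET x hc

end Groth.Agent.An.H867.Ret4221
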